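import Cfsg.Agent.AutOrthField.Generic
import Cfsg.Agent.AutOrthField.IsometryLift
import Cfsg.Agent.OrthGeo.QuadOdd
import Cfsg.Agent.Eq.Def_LieTypeDatum
import Cfsg.Agent.AutPSL.GraphField

/-!
# Field automorphisms of `Ω_{2m+1}(F)`
-/

set_option autoImplicit false
set_option linter.unusedSectionVars false

namespace CfsgLib.AutOrthField

open Module Cfsg Cfsg.Geo CfsgLib.OrthGeo CfsgLib.AutOrth CfsgLib.Classical.Orth
open scoped Matrix MatrixGroups

variable {F : Type*} [Field F] {m : ℕ}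

local notation "Io" => Unit ⊕ (Fin m ⊕ Fin m)

theorem sigmaInv_odd (σ : RingAut F) : SigmaInv (quadFormOdd m F) σ := fun v => by
  simp [quadFormOdd, map_sum]

theorem res_odd {F₀ : Type*} [Field F₀] (e : F₀ →+* F) (v : Io → F₀) :
    quadFormOdd m F (fun i => e (v i)) = e (quadFormOdd m F₀ v) := by
  simp [quadFormOdd, map_sum]

theorem card_odd : Fintype.card (Io) = 2 * m + 1 := by simp; omega

theorem inndiag_odd_eq :
    inndiagPOmegaOdd m F = (⊤ : Subgroup (Sim (quadFormOdd m F))).map (conjS (quadFormOdd m F)) :=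
  pgoAut_eq (quadFormOdd m F)

theorem inndiag_odd_normal (hall : ∀ β : MulAut (POmega F (quadFormOdd m F)), IsSemisim (quadFormOdd m F) β) :
    (inndiagPOmegaOdd m F).Normal := by
  rw [inndiag_odd_eq]
  exact normal_map_conjS hall ⊤ fun _ _ _ _ _ _ => trivial

theorem two_ne_zero_of_odd [Fintype F] (hodd : Odd (Fintype.card F)) : (2 : F) ≠ 0 := by
  intro h
  have : CharP F 2 := CharP.ringChar_of_prime_eq_zero Nat.prime_two (by simpa using h) ▸ inferInstance
  have h2 : (2 : ℕ) ∣ Fintype.card F := (CharP.cast_eq_zero_iff F 2 _).1 (FiniteField.cast_card_eq_zero F)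
  exact (Nat.not_even_iff_odd.2 hodd) (even_iff_two_dvd.2 h2)

variable [Finite F]

/-- Coset statement in odd dimension. -/
theorem coset_conj_odd (h2 : (2 : F) ≠ 0) (hm : 3 ≤ m)
    (hall : ∀ β : MulAut (POmega F (quadFormOdd m F)), IsSemisim (quadFormOdd m F) β)
    (x δ : MulAut (POmega F (quadFormOdd m F))) (hx : IsFieldAutClassPOmega (quadFormOdd m F) x) {r : ℕ}
    (hr : r.Prime) (hxr : orderOf x = r) (hδ : δ ∈ inndiagPOmegaOdd m F) :
    orderOf (δ * x) = r ↔ IsConjUnder (inndiagPOmegaOdd m F) x (δ * x) := by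
  obtain ⟨α, φ, σ, -, hφ, hα⟩ := hx
  have hQ := isNondegenerateQuadraticForm_quadFormOdd m h2
  exact coset_conj_iff hQ (by rw [card_odd]; omega) (sigmaInv_odd σ) hr.pos inndiag_odd_eq
    (inndiag_odd_normal hall) (fun h => hasDescent_odd hQ h2 (by rw [card_odd]; exact ⟨m, rfl⟩) _ h hr.pos)
    (fun g hg => absurd trivial hg) hφ hα hxr hδ

/-- The scalar square root of the multiplier. -/
noncomputable def sqrtMult (hne : ∃ v, quadFormOdd m F v ≠ 0) : Sim (quadFormOdd m F) →* Fˣ :=
  (Matrix.GeneralLinearGroup.det.comp (quadSimilarityGroup (quadFormOdd m F)).subtype) /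
    ((powMonoidHom m).comp (mult hne))

theorem det_gram_sq {ι : Type} [Fintype ι] [DecidableEq ι] {Q : (ι → F) → F}
    (hQ : IsNondegenerateQuadraticForm Q) (hne : ∃ v, Q v ≠ 0) (a : Sim Q) :
    (a.1 : Matrix ι ι F).det ^ 2 = (mult hne a : F) ^ Fintype.card ι := by
  set b := Pi.basisFun F ι with hb
  set w : ι → ι → F := fun j => (a.1 : Matrix ι ι F) *ᵥ b j with hw
  have hM : b.toMatrix w = (a.1 : Matrix ι ι F) := by
    ext i j
    simp [Basis.toMatrix_apply, hw, hb]
  have h1 : LinAlg.Witt.gram (bform hQ) w = (mult hne a : F) • LinAlg.Witt.gram (bform hQ) b := by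
    ext i j
    simp only [LinAlg.Witt.gram_apply, Matrix.smul_apply, smul_eq_mul, bform_apply, QuadraticMap.polar, hw,
      ← Matrix.mulVec_add, mult_spec hne]
    ring
  have hd := congrArg Matrix.det ((LinAlg.Witt.gram_change (bform hQ) b w).symm.trans h1)
  rw [hM, Matrix.det_mul, Matrix.det_mul, Matrix.det_transpose, Matrix.det_smul] at hd
  have hB0 : (LinAlg.Witt.gram (bform hQ) b).det ≠ 0 :=
    LinAlg.Witt.gram_det_ne_zero _ b (b_nondeg hQ).ker_eq_bot
  exact mul_right_cancel₀ hB0 (by linear_combination hd)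

theorem sqrtMult_sq (hQ : IsNondegenerateQuadraticForm (quadFormOdd m F)) (hne : ∃ v, quadFormOdd m F v ≠ 0)
    (a : Sim (quadFormOdd m F)) : sqrtMult hne a ^ 2 = mult hne a := by
  refine Units.ext ?_
  have h := det_gram_sq hQ hne a
  rw [card_odd] at h
  simp only [sqrtMult, MonoidHom.div_apply, MonoidHom.comp_apply, powMonoidHom_apply, Subgroup.subtype_apply,
    Units.val_pow_eq_pow_val, Units.val_div_eq_div_val, Matrix.GeneralLinearGroup.val_det_apply, div_pow]
  rw [div_eq_iff (pow_ne_zero _ (pow_ne_zero _ (Units.ne_zero _))), h]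
  ring

/-- The special isometry part of a similarity in odd dimension. -/
noncomputable def toSO (hQ : IsNondegenerateQuadraticForm (quadFormOdd m F))
    (hne : ∃ v, quadFormOdd m F v ≠ 0) : Sim (quadFormOdd m F) →* ↥(isometryGroup F (quadFormOdd m F)) :=
  MonoidHom.mk' (fun a => ⟨(scalarSim hQ (sqrtMult hne a)⁻¹ * a).1, mem_isometryGroup.2 fun v => by
      rw [mult_spec hne, map_mul, mult_scalarSim, inv_pow, sqrtMult_sq hQ, inv_mul_cancel, Units.val_one,
        one_mul]⟩)
    fun a b => Subtype.ext <| show _ = (scalarSim hQ (sqrtMult hne a)⁻¹ * a).1 * (scalarSim hQ (sqrtMult hne b)⁻¹ * b).1 from congrArg Subtype.val (show scalarSim hQ (sqrtMult hne (a * b))⁻¹ * (a * b) =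
        (scalarSim hQ (sqrtMult hne a)⁻¹ * a) * (scalarSim hQ (sqrtMult hne b)⁻¹ * b) by
      rw [map_mul (sqrtMult hne), mul_inv, map_mul (scalarSim hQ)]
      simp only [mul_assoc]
      rw [← mul_assoc a, ← scalarSim_comm hQ _ a, mul_assoc])

theorem coe_toSO (hQ : IsNondegenerateQuadraticForm (quadFormOdd m F)) (hne : ∃ v, quadFormOdd m F v ≠ 0)
    (a : Sim (quadFormOdd m F)) :
    (toSO hQ hne a).1 = (scalarSim hQ (sqrtMult hne a)⁻¹ * a).1 := rfl

theorem toSO_even (h2 : (2 : F) ≠ 0) (hQ : IsNondegenerateQuadraticForm (quadFormOdd m F))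
    (hne : ∃ v, quadFormOdd m F v ≠ 0) (a : Sim (quadFormOdd m F)) :
    Even (finrank F (residual (toSO hQ hne a).1)) := by
  have h := det_eq_neg_one_pow hQ (not_exc_of_two_ne_zero h2) (toSO hQ hne a).2
  set u := (sqrtMult hne a : F) with hu
  have hu2 : u ^ 2 = (mult hne a : F) := by
    rw [hu, ← Units.val_pow_eq_pow_val, sqrtMult_sq hQ]
  have hdet : (a.1 : Matrix Io Io F).det = u ^ (2 * m + 1) := by
    have : u * (mult hne a : F) ^ m = (a.1 : Matrix Io Io F).det := by
      simp [hu, sqrtMult]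
    rw [← this, ← hu2]; ring
  have h1 : ((toSO hQ hne a).1 : Matrix Io Io F).det = 1 := by
    rw [coe_toSO, Subgroup.coe_mul, Units.val_mul, Matrix.det_mul, coe_scalarSim, map_inv,
      Matrix.coe_units_inv, Matrix.det_nonsing_inv, Matrix.GeneralLinearGroup.coe_scalar, Matrix.scalar_apply,
      Matrix.det_diagonal, Finset.prod_const, Finset.card_univ, card_odd, ← hu, hdet, Ring.inverse_eq_inv',
      inv_mul_cancel₀ (pow_ne_zero _ (Units.ne_zero _))]
  rw [h1] at h
  by_contra ho
  rw [(Nat.not_even_iff_odd.1 ho).neg_one_pow] at h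
  exact h2 (by linear_combination h)

/-- Spinor class of the special part. -/
noncomputable def spinClass (h2 : (2 : F) ≠ 0) (hQ : IsNondegenerateQuadraticForm (quadFormOdd m F))
    (hne : ∃ v, quadFormOdd m F v ≠ 0) : Sim (quadFormOdd m F) →* Multiplicative (ZMod 2) :=
  ((MonoidHom.snd _ _).comp (classHom hQ (not_exc_of_two_ne_zero h2))).comp (toSO hQ hne)

theorem spinClass_eq_one_iff (h2 : (2 : F) ≠ 0) (hQ : IsNondegenerateQuadraticForm (quadFormOdd m F))
    (hne : ∃ v, quadFormOdd m F v ≠ 0) (a : Sim (quadFormOdd m F)) :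
    spinClass h2 hQ hne a = 1 ↔ ∃ (k : Omega F (quadFormOdd m F)) (u : Fˣ),
      a = omegaToS _ k * scalarSim hQ u := by
  constructor
  · intro h
    refine ⟨⟨toSO hQ hne a, mem_omega_of_invariants hQ (not_exc_of_two_ne_zero h2) (toSO_even h2 hQ hne a)
      ((classHom_snd hQ (not_exc_of_two_ne_zero h2) _).1 h)⟩, sqrtMult hne a, ?_⟩
    rw [← scalarSim_comm]
    refine Subtype.ext ?_
    change a.1 = (scalarSim hQ (sqrtMult hne a)).1 * (toSO hQ hne a).1
    rw [coe_toSO, ← Subgroup.coe_mul, ← mul_assoc, ← map_mul, mul_inv_cancel, map_one, one_mul]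
  · rintro ⟨k, u, rfl⟩
    have hk : ∀ s : ↥(isometryGroup F (quadFormOdd m F)), s ∈ Omega F (quadFormOdd m F) →
        (classHom hQ (not_exc_of_two_ne_zero h2) s).2 = 1 := fun s hs =>
      (classHom_snd hQ _ _).2 (invariants_of_mem_omega hQ (not_exc_of_two_ne_zero h2) hs).2
    have e1 : toSO hQ hne (omegaToS _ k * scalarSim hQ u) = toSO hQ hne (omegaToS _ k) := by
      rw [map_mul, mul_eq_left]
      have hs : sqrtMult hne (scalarSim hQ u) = u := by
        refine Units.ext ?_
        simp only [sqrtMult, MonoidHom.div_apply, MonoidHom.comp_apply, powMonoidHom_apply, Subgroup.subtype_apply,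
          coe_scalarSim, Units.val_div_eq_div_val, Units.val_pow_eq_pow_val, Matrix.GeneralLinearGroup.val_det_apply,
          mult_scalarSim, Matrix.GeneralLinearGroup.coe_scalar, Matrix.scalar_apply, Matrix.det_diagonal,
          Finset.prod_const, Finset.card_univ, card_odd]
        field_simp
        ring
      refine Subtype.ext ?_
      rw [coe_toSO, hs, ← map_mul, inv_mul_cancel, map_one]
      rfl
    change (classHom hQ (not_exc_of_two_ne_zero h2) (toSO hQ hne (omegaToS _ k * scalarSim hQ u))).2 = 1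
    rw [e1]
    have hm1 : mult hne (omegaToS _ k) = 1 := Units.ext (mult_eq hne _ _ fun v => by
      rw [Units.val_one, one_mul]; exact mem_isometryGroup.1 (k : ↥(isometryGroup F (quadFormOdd m F))).2 v)
    have hd1 : Matrix.GeneralLinearGroup.det (omegaToS (quadFormOdd m F) k).1 = 1 := by
      refine Units.ext ?_
      rw [Matrix.GeneralLinearGroup.val_det_apply]
      refine (det_eq_neg_one_pow hQ (not_exc_of_two_ne_zero h2) (k : ↥(isometryGroup F (quadFormOdd m F))).2).trans ?_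
      rw [(invariants_of_mem_omega hQ (not_exc_of_two_ne_zero h2) k.2).1.neg_one_pow, Units.val_one]
    have e2 : toSO hQ hne (omegaToS _ k) = (k : ↥(isometryGroup F (quadFormOdd m F))) := by
      refine Subtype.ext ?_
      rw [coe_toSO, show sqrtMult hne (omegaToS _ k) = 1 by
        rw [sqrtMult, MonoidHom.div_apply, MonoidHom.comp_apply, MonoidHom.comp_apply, Subgroup.subtype_apply, hd1,
          hm1, map_one, div_one], inv_one, map_one, one_mul]
      rfl
    rw [e2]
    exact hk _ k.2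

theorem spinClass_surjective (h2 : (2 : F) ≠ 0) (hQ : IsNondegenerateQuadraticForm (quadFormOdd m F))
    (hne : ∃ v, quadFormOdd m F v ≠ 0) (hm : 1 ≤ m) : Function.Surjective (spinClass h2 hQ hne) := by
  intro y
  obtain ⟨s, hs⟩ := classHom_surjective hQ h2 (by rw [card_odd]; omega) (1, y)
  refine ⟨⟨s.1, isometry_le_similarity _ s.2⟩, ?_⟩
  have hev : Even (finrank F (residual (s : GL Io F))) :=
    (classHom_fst hQ (not_exc_of_two_ne_zero h2) s).1 (congrArg Prod.fst hs)
  change (classHom hQ (not_exc_of_two_ne_zero h2) (toSO hQ hne _)).2 = y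
  have h1 : toSO hQ hne ⟨s.1, isometry_le_similarity _ s.2⟩ = s := by
    refine Subtype.ext ?_
    have hm1 : mult hne ⟨s.1, isometry_le_similarity _ s.2⟩ = 1 := Units.ext (mult_eq hne _ _ fun v => by
      rw [Units.val_one, one_mul]; exact mem_isometryGroup.1 s.2 v)
    have hd1 : Matrix.GeneralLinearGroup.det s.1 = 1 := by
      refine Units.ext ?_
      rw [Matrix.GeneralLinearGroup.val_det_apply, det_eq_neg_one_pow hQ (not_exc_of_two_ne_zero h2) s.2,
        hev.neg_one_pow, Units.val_one]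
    rw [coe_toSO, show sqrtMult hne ⟨s.1, isometry_le_similarity _ s.2⟩ = 1 by
      rw [sqrtMult, MonoidHom.div_apply, MonoidHom.comp_apply, MonoidHom.comp_apply, Subgroup.subtype_apply, hd1,
        hm1, map_one, div_one], inv_one, map_one, one_mul]
  rw [h1, hs]

/-- The field automorphism statement in odd dimension. -/
theorem field_odd [Fintype F] {p f : ℕ} [Fact p.Prime] (hF : Fintype.card F = p ^ f) (hf : 1 ≤ f)
    (h2 : (2 : F) ≠ 0) (hm : 3 ≤ m)
    (hall : ∀ β : MulAut (POmega F (quadFormOdd m F)), IsSemisim (quadFormOdd m F) β)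
    (x : MulAut (POmega F (quadFormOdd m F))) (hx : IsFieldAutClassPOmega (quadFormOdd m F) x) {r : ℕ}
    (hr : r.Prime) (hxr : orderOf x = r) (F₀ : Type*) [Field F₀] [Fintype F₀]
    (hF₀ : Fintype.card F₀ = p ^ (f / r)) :
    r ∣ f ∧ Nonempty (↥(inndiagPOmegaOdd m F ⊓ Subgroup.centralizer {x}) ≃* ↥(inndiagPOmegaOdd m F₀)) ∧
      (Odd r → splitClassCount (inndiagPOmegaOdd m F) (Inn (POmega F (quadFormOdd m F))) x = 1) ∧
      (r = 2 → splitClassCount (inndiagPOmegaOdd m F) (Inn (POmega F (quadFormOdd m F))) x = 2) := by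
  obtain ⟨α, φ, σ, -, hφ, hα⟩ := hx
  have hn : 5 ≤ Fintype.card (Io) := by rw [card_odd]; omega
  have hQ := isNondegenerateQuadraticForm_quadFormOdd m h2
  have hσ := sigmaInv_odd (m := m) σ
  have hxeq := exists_normal_form hσ hφ hα
  subst hxeq
  rw [AutPSp.orderOf_conj, orderOf_mapP hQ hn] at hxr
  have hrf : r ∣ f := AutPSL.even_of_involution hF hf hxr
  obtain ⟨e, he⟩ := AutPSL.exists_fixed_embedding hF hxr hr.pos hrf F₀ hF₀
  have h20 : (2 : F₀) ≠ 0 := fun h => h2 (by have := congrArg e h; simpa [map_ofNat] using this)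
  have hQ₀ := isNondegenerateQuadraticForm_quadFormOdd m h20
  haveI := inndiag_odd_normal hall
  haveI : (Inn (POmega F (quadFormOdd m F))).Normal := inn_normal
  obtain ⟨e1⟩ := AutPSp.inf_centralizer_aut (inndiagPOmegaOdd m F) (mapP hσ) α⁻¹
  obtain ⟨e2⟩ := centralizer_equiv hQ e (res_odd e) hn hQ₀ hσ hxr hr.pos he (⊤ : Subgroup (Sim (quadFormOdd m F)))
    (⊤ : Subgroup (Sim (quadFormOdd m F₀))) (fun _ => trivial) (fun _ => Iff.rfl)
  rw [← inndiag_odd_eq, ← inndiag_odd_eq] at e2
  have hne := exists_q_ne_zero hQ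
  have hne₀ := exists_q_ne_zero hQ₀
  have hexc := not_exc_of_two_ne_zero (ι := Io) h2
  have hexc₀ := not_exc_of_two_ne_zero (ι := Io) h20
  have hsqrt : ∀ g₀ : Sim (quadFormOdd m F₀), sqrtMult hne (liftSim e hQ (res_odd e) g₀) =
      Units.map e.toMonoidHom (sqrtMult hne₀ g₀) := by
    intro g₀
    simp only [sqrtMult, MonoidHom.div_apply, MonoidHom.comp_apply, powMonoidHom_apply, map_div,
      mult_liftSim e hQ (res_odd e) hne hne₀, map_pow]
    congr 1
    exact Units.ext (RingHom.map_det e g₀.1.1).symm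
  have hlift : ∀ g₀ : Sim (quadFormOdd m F₀), spinClass h2 hQ hne (liftSim e hQ (res_odd e) g₀) = 1 ↔
      IsSquare (e (spinor hQ₀ (toSO hQ₀ hne₀ g₀).1)) := by
    intro g₀
    refine (classHom_snd hQ hexc _).trans ?_
    rw [← (invariants_lift e hQ (res_odd e) hQ₀ hexc₀ (toSO hQ₀ hne₀ g₀).2).2]
    refine iff_of_eq (congrArg (fun z => IsSquare (spinor hQ z)) ?_)
    rw [coe_toSO, coe_toSO, hsqrt, Subgroup.coe_mul, Subgroup.coe_mul, map_mul, coe_liftSim, ← map_inv]
    congr 1
    refine Units.ext ?_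
    ext i j
    by_cases hij : i = j
    · subst hij; simp
    · simp [hij]
  refine ⟨hrf, ⟨e1.trans e2⟩, fun hro => ?_, fun hr2 => ?_⟩
  · rw [AutPSp.splitClassCount_aut, inndiag_odd_eq,
      splitClassCount_eq hQ e (res_odd e) hn hσ hxr hr.pos he ⊤ (1 : _ →* PUnit.{1})
        (fun y => ⟨1, rfl⟩) (fun a => iff_of_true rfl ?_), Nat.card_unique]
    obtain ⟨g₀, hg₀⟩ := spinClass_surjective (m := m) h20 hQ₀ hne₀ (by omega) (spinClass h2 hQ hne a.1)
    have hiff : spinClass h2 hQ hne (liftSim e hQ (res_odd e) g₀) = 1 ↔ spinClass h20 hQ₀ hne₀ g₀ = 1 := by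
      rw [hlift, isSquare_map_of_odd e (hxr.symm ▸ hro) he]
      exact (classHom_snd hQ₀ hexc₀ _).symm
    have hsame : spinClass h2 hQ hne (liftSim e hQ (res_odd e) g₀) = spinClass h2 hQ hne a.1 := by
      have h01 : ∀ y : Multiplicative (ZMod 2), y ≠ 1 → y = Multiplicative.ofAdd 1 := by decide
      by_cases h : spinClass h20 hQ₀ hne₀ g₀ = 1
      · rw [hiff.2 h, ← hg₀, h]
      · rw [h01 _ (fun h' => h (hiff.1 h')), ← hg₀, h01 _ h]
    obtain ⟨k, u, hk⟩ := (spinClass_eq_one_iff h2 hQ hne (a.1 * (liftSim e hQ (res_odd e) g₀)⁻¹)).1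
      (by rw [map_mul, map_inv, hsame, mul_inv_cancel])
    exact ⟨k, u, g₀, by rw [← mul_assoc, ← hk, inv_mul_cancel_right]⟩
  · subst hr2
    rw [AutPSp.splitClassCount_aut, inndiag_odd_eq,
      splitClassCount_eq hQ e (res_odd e) hn hσ hxr hr.pos he ⊤
        ((spinClass h2 hQ hne).comp (⊤ : Subgroup (Sim (quadFormOdd m F))).subtype) ?_ (fun a => ?_),
      Nat.card_congr Multiplicative.toAdd, Nat.card_zmod]
    · intro y
      obtain ⟨a, ha⟩ := spinClass_surjective (m := m) h2 hQ hne (by omega) y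
      exact ⟨⟨a, trivial⟩, ha⟩
    constructor
    · intro h
      obtain ⟨k, u, hk⟩ := (spinClass_eq_one_iff h2 hQ hne a.1).1 h
      exact ⟨k, u, 1, by rw [map_one, mul_one, hk]⟩
    · rintro ⟨k, u, g₀, hk⟩
      change spinClass h2 hQ hne a.1 = 1
      rw [hk, ← mul_assoc, map_mul, (spinClass_eq_one_iff h2 hQ hne _).2 ⟨k, u, rfl⟩, one_mul,
        (hlift g₀).2 (isSquare_map_of_two e hxr he _)]

end CfsgLib.AutOrthField
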